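import Mathlib
import Cfsg.Agent.Lib.LyDce.CarRel
import Cfsg.Agent.Lib.DoubleA11
import Cfsg.Agent.TcData.Ly.Syl.FuC

/-!
# The presented Lyons group: explicit elements for the fusion system on a Sylow subgroup
-/

set_option autoImplicit false
set_option Elab.async false
set_option maxRecDepth 100000
set_option linter.all false
set_option maxHeartbeats 0

namespace Cfsg.Agent.Lib.LyDce

open Cfsg.Spor.Ly Cfsg.Agent.Lib.FpVec Cfsg.Agent.Lib.LyV111 Cfsg.Agent.TcData.Ly.Syl.CarP Cfsg.Agent.TcData.Ly.Syl Cfsg.Agent.Lib.DoubleA11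

/-- A word in the lifts of three-cycles. -/
def Wu {Γ : Type*} [Group Γ] (h s : Γ) : List ℕ → Γ
  | [] => 1
  | q :: l => uu h s q * Wu h s l

theorem Wu_cons {Γ : Type*} [Group Γ] (h s : Γ) (q : ℕ) (l : List ℕ) : Wu h s (q :: l) = uu h s q * Wu h s l := rfl

theorem Wu_single {Γ : Type*} [Group Γ] (h s : Γ) (q : ℕ) : Wu h s [q] = uu h s q := by
  simp [Wu]

theorem uu_zero' {Γ : Type*} [Group Γ] (h s : Γ) : uu h s 0 = s := by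
  simp [uu]

theorem uu_succ' {Γ : Type*} [Group Γ] {h s : Γ} (i j : ℕ) (e : j = i + 1) : uu h s j = h * uu h s i * h⁻¹ := by
  subst e
  simpa using uu_add h s i 1

/-- The words. -/
def lW0 : List ℕ := [0,7,7,0,1,1,4,3,8,4,4]
def lW1 : List ℕ := [1,0,7,1,1,3,8,8,3,4,4]
def lW2 : List ℕ := [0,7,7,0,1,1,2,3,6,2,2]

theorem fus_data (gh gs gt : RG) (hh : Rep gh X24) (hs : Rep gs X33) (ht : Rep gt X10) :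
    (Wu gh gs lW1 * Wu gh gs lW2 * (Wu gh gs lW1 * Wu gh gs lW2) * (Wu gh gs lW1 * Wu gh gs lW2 * (Wu gh gs lW1 * Wu gh gs lW2))) * Wu gh gs lW0 =
      gt * (Wu gh gs lW0 * (Wu gh gs lW1 * Wu gh gs lW2 * (Wu gh gs lW1 * Wu gh gs lW2) * (Wu gh gs lW1 * Wu gh gs lW2 * (Wu gh gs lW1 * Wu gh gs lW2)))) ∧
    (∃ c, c * gt = Wu gh gs lW0 * c) ∧ (∃ c, c * gt = Wu gh gs lW1 * c) ∧ (∃ c, c * gt = Wu gh gs lW2 * c) := by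
  have hinv : Rep gh⁻¹ X34 := Rep.inv7 hh X34_len X34_0 X34_16 X34_32 X34_48 X34_64 X34_80 X34_96
  have u0 : Rep (uu gh gs 0) X33 := by
    rw [uu_zero']
    exact hs
  have rX35 := Rep.mul7 hh u0 X35_len X35_0 X35_16 X35_32 X35_48 X35_64 X35_80 X35_96
  have rX36 : Rep (uu gh gs 1) X36 := by
    rw [uu_succ' 0 1 rfl]
    exact Rep.mul7 rX35 hinv X36_len X36_0 X36_16 X36_32 X36_48 X36_64 X36_80 X36_96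
  have rX37 := Rep.mul7 hh rX36 X37_len X37_0 X37_16 X37_32 X37_48 X37_64 X37_80 X37_96
  have rX38 : Rep (uu gh gs 2) X38 := by
    rw [uu_succ' 1 2 rfl]
    exact Rep.mul7 rX37 hinv X38_len X38_0 X38_16 X38_32 X38_48 X38_64 X38_80 X38_96
  have rX39 := Rep.mul7 hh rX38 X39_len X39_0 X39_16 X39_32 X39_48 X39_64 X39_80 X39_96
  have rX40 : Rep (uu gh gs 3) X40 := by
    rw [uu_succ' 2 3 rfl]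
    exact Rep.mul7 rX39 hinv X40_len X40_0 X40_16 X40_32 X40_48 X40_64 X40_80 X40_96
  have rX41 := Rep.mul7 hh rX40 X41_len X41_0 X41_16 X41_32 X41_48 X41_64 X41_80 X41_96
  have rX42 : Rep (uu gh gs 4) X42 := by
    rw [uu_succ' 3 4 rfl]
    exact Rep.mul7 rX41 hinv X42_len X42_0 X42_16 X42_32 X42_48 X42_64 X42_80 X42_96
  have rF0 := Rep.mul7 hh rX42 FuN.F0_len FuN.F0_0 FuN.F0_16 FuN.F0_32 FuN.F0_48 FuN.F0_64 FuN.F0_80 FuN.F0_96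
  have rF1 : Rep (uu gh gs 5) FuN.F1 := by
    rw [uu_succ' 4 5 rfl]
    exact Rep.mul7 rF0 hinv FuN.F1_len FuN.F1_0 FuN.F1_16 FuN.F1_32 FuN.F1_48 FuN.F1_64 FuN.F1_80 FuN.F1_96
  have rF2 := Rep.mul7 hh rF1 FuN.F2_len FuN.F2_0 FuN.F2_16 FuN.F2_32 FuN.F2_48 FuN.F2_64 FuN.F2_80 FuN.F2_96
  have rF3 : Rep (uu gh gs 6) FuN.F3 := by
    rw [uu_succ' 5 6 rfl]
    exact Rep.mul7 rF2 hinv FuN.F3_len FuN.F3_0 FuN.F3_16 FuN.F3_32 FuN.F3_48 FuN.F3_64 FuN.F3_80 FuN.F3_96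
  have rF4 := Rep.mul7 hh rF3 FuN.F4_len FuN.F4_0 FuN.F4_16 FuN.F4_32 FuN.F4_48 FuN.F4_64 FuN.F4_80 FuN.F4_96
  have rF5 : Rep (uu gh gs 7) FuN.F5 := by
    rw [uu_succ' 6 7 rfl]
    exact Rep.mul7 rF4 hinv FuN.F5_len FuN.F5_0 FuN.F5_16 FuN.F5_32 FuN.F5_48 FuN.F5_64 FuN.F5_80 FuN.F5_96
  have rF6 := Rep.mul7 hh rF5 FuN.F6_len FuN.F6_0 FuN.F6_16 FuN.F6_32 FuN.F6_48 FuN.F6_64 FuN.F6_80 FuN.F6_96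
  have rF7 : Rep (uu gh gs 8) FuN.F7 := by
    rw [uu_succ' 7 8 rfl]
    exact Rep.mul7 rF6 hinv FuN.F7_len FuN.F7_0 FuN.F7_16 FuN.F7_32 FuN.F7_48 FuN.F7_64 FuN.F7_80 FuN.F7_96
  have w_4 : Rep (Wu gh gs [4]) X42 := by
    rw [Wu_single]
    exact rX42
  have w_4_4 : Rep (Wu gh gs [4,4]) FuN.F8 := by
    rw [Wu_cons]
    exact Rep.mul7 rX42 w_4 FuN.F8_len FuN.F8_0 FuN.F8_16 FuN.F8_32 FuN.F8_48 FuN.F8_64 FuN.F8_80 FuN.F8_96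
  have w_8_4_4 : Rep (Wu gh gs [8,4,4]) FuN.F9 := by
    rw [Wu_cons]
    exact Rep.mul7 rF7 w_4_4 FuN.F9_len FuN.F9_0 FuN.F9_16 FuN.F9_32 FuN.F9_48 FuN.F9_64 FuN.F9_80 FuN.F9_96
  have w_3_8_4_4 : Rep (Wu gh gs [3,8,4,4]) FuN.F10 := by
    rw [Wu_cons]
    exact Rep.mul7 rX40 w_8_4_4 FuN.F10_len FuN.F10_0 FuN.F10_16 FuN.F10_32 FuN.F10_48 FuN.F10_64 FuN.F10_80 FuN.F10_96
  have w_4_3_8_4_4 : Rep (Wu gh gs [4,3,8,4,4]) FuN.F11 := by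
    rw [Wu_cons]
    exact Rep.mul7 rX42 w_3_8_4_4 FuN.F11_len FuN.F11_0 FuN.F11_16 FuN.F11_32 FuN.F11_48 FuN.F11_64 FuN.F11_80 FuN.F11_96
  have w_1_4_3_8_4_4 : Rep (Wu gh gs [1,4,3,8,4,4]) FuN.F12 := by
    rw [Wu_cons]
    exact Rep.mul7 rX36 w_4_3_8_4_4 FuN.F12_len FuN.F12_0 FuN.F12_16 FuN.F12_32 FuN.F12_48 FuN.F12_64 FuN.F12_80 FuN.F12_96
  have w_1_1_4_3_8_4_4 : Rep (Wu gh gs [1,1,4,3,8,4,4]) FuN.F13 := by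
    rw [Wu_cons]
    exact Rep.mul7 rX36 w_1_4_3_8_4_4 FuN.F13_len FuN.F13_0 FuN.F13_16 FuN.F13_32 FuN.F13_48 FuN.F13_64 FuN.F13_80 FuN.F13_96
  have w_0_1_1_4_3_8_4_4 : Rep (Wu gh gs [0,1,1,4,3,8,4,4]) FuN.F14 := by
    rw [Wu_cons]
    exact Rep.mul7 u0 w_1_1_4_3_8_4_4 FuN.F14_len FuN.F14_0 FuN.F14_16 FuN.F14_32 FuN.F14_48 FuN.F14_64 FuN.F14_80 FuN.F14_96
  have w_7_0_1_1_4_3_8_4_4 : Rep (Wu gh gs [7,0,1,1,4,3,8,4,4]) FuN.F15 := by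
    rw [Wu_cons]
    exact Rep.mul7 rF5 w_0_1_1_4_3_8_4_4 FuN.F15_len FuN.F15_0 FuN.F15_16 FuN.F15_32 FuN.F15_48 FuN.F15_64 FuN.F15_80 FuN.F15_96
  have w_7_7_0_1_1_4_3_8_4_4 : Rep (Wu gh gs [7,7,0,1,1,4,3,8,4,4]) FuN.F16 := by
    rw [Wu_cons]
    exact Rep.mul7 rF5 w_7_0_1_1_4_3_8_4_4 FuN.F16_len FuN.F16_0 FuN.F16_16 FuN.F16_32 FuN.F16_48 FuN.F16_64 FuN.F16_80 FuN.F16_96
  have w_0_7_7_0_1_1_4_3_8_4_4 : Rep (Wu gh gs [0,7,7,0,1,1,4,3,8,4,4]) FuN.F17 := by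
    rw [Wu_cons]
    exact Rep.mul7 u0 w_7_7_0_1_1_4_3_8_4_4 FuN.F17_len FuN.F17_0 FuN.F17_16 FuN.F17_32 FuN.F17_48 FuN.F17_64 FuN.F17_80 FuN.F17_96
  have w_3_4_4 : Rep (Wu gh gs [3,4,4]) FuN.F18 := by
    rw [Wu_cons]
    exact Rep.mul7 rX40 w_4_4 FuN.F18_len FuN.F18_0 FuN.F18_16 FuN.F18_32 FuN.F18_48 FuN.F18_64 FuN.F18_80 FuN.F18_96
  have w_8_3_4_4 : Rep (Wu gh gs [8,3,4,4]) FuN.F19 := by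
    rw [Wu_cons]
    exact Rep.mul7 rF7 w_3_4_4 FuN.F19_len FuN.F19_0 FuN.F19_16 FuN.F19_32 FuN.F19_48 FuN.F19_64 FuN.F19_80 FuN.F19_96
  have w_8_8_3_4_4 : Rep (Wu gh gs [8,8,3,4,4]) FuN.F20 := by
    rw [Wu_cons]
    exact Rep.mul7 rF7 w_8_3_4_4 FuN.F20_len FuN.F20_0 FuN.F20_16 FuN.F20_32 FuN.F20_48 FuN.F20_64 FuN.F20_80 FuN.F20_96
  have w_3_8_8_3_4_4 : Rep (Wu gh gs [3,8,8,3,4,4]) FuN.F21 := by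
    rw [Wu_cons]
    exact Rep.mul7 rX40 w_8_8_3_4_4 FuN.F21_len FuN.F21_0 FuN.F21_16 FuN.F21_32 FuN.F21_48 FuN.F21_64 FuN.F21_80 FuN.F21_96
  have w_1_3_8_8_3_4_4 : Rep (Wu gh gs [1,3,8,8,3,4,4]) FuN.F22 := by
    rw [Wu_cons]
    exact Rep.mul7 rX36 w_3_8_8_3_4_4 FuN.F22_len FuN.F22_0 FuN.F22_16 FuN.F22_32 FuN.F22_48 FuN.F22_64 FuN.F22_80 FuN.F22_96
  have w_1_1_3_8_8_3_4_4 : Rep (Wu gh gs [1,1,3,8,8,3,4,4]) FuN.F23 := by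
    rw [Wu_cons]
    exact Rep.mul7 rX36 w_1_3_8_8_3_4_4 FuN.F23_len FuN.F23_0 FuN.F23_16 FuN.F23_32 FuN.F23_48 FuN.F23_64 FuN.F23_80 FuN.F23_96
  have w_7_1_1_3_8_8_3_4_4 : Rep (Wu gh gs [7,1,1,3,8,8,3,4,4]) FuN.F24 := by
    rw [Wu_cons]
    exact Rep.mul7 rF5 w_1_1_3_8_8_3_4_4 FuN.F24_len FuN.F24_0 FuN.F24_16 FuN.F24_32 FuN.F24_48 FuN.F24_64 FuN.F24_80 FuN.F24_96
  have w_0_7_1_1_3_8_8_3_4_4 : Rep (Wu gh gs [0,7,1,1,3,8,8,3,4,4]) FuN.F25 := by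
    rw [Wu_cons]
    exact Rep.mul7 u0 w_7_1_1_3_8_8_3_4_4 FuN.F25_len FuN.F25_0 FuN.F25_16 FuN.F25_32 FuN.F25_48 FuN.F25_64 FuN.F25_80 FuN.F25_96
  have w_1_0_7_1_1_3_8_8_3_4_4 : Rep (Wu gh gs [1,0,7,1,1,3,8,8,3,4,4]) FuN.F26 := by
    rw [Wu_cons]
    exact Rep.mul7 rX36 w_0_7_1_1_3_8_8_3_4_4 FuN.F26_len FuN.F26_0 FuN.F26_16 FuN.F26_32 FuN.F26_48 FuN.F26_64 FuN.F26_80 FuN.F26_96
  have w_2 : Rep (Wu gh gs [2]) X38 := by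
    rw [Wu_single]
    exact rX38
  have w_2_2 : Rep (Wu gh gs [2,2]) FuN.F27 := by
    rw [Wu_cons]
    exact Rep.mul7 rX38 w_2 FuN.F27_len FuN.F27_0 FuN.F27_16 FuN.F27_32 FuN.F27_48 FuN.F27_64 FuN.F27_80 FuN.F27_96
  have w_6_2_2 : Rep (Wu gh gs [6,2,2]) FuN.F28 := by
    rw [Wu_cons]
    exact Rep.mul7 rF3 w_2_2 FuN.F28_len FuN.F28_0 FuN.F28_16 FuN.F28_32 FuN.F28_48 FuN.F28_64 FuN.F28_80 FuN.F28_96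
  have w_3_6_2_2 : Rep (Wu gh gs [3,6,2,2]) FuN.F29 := by
    rw [Wu_cons]
    exact Rep.mul7 rX40 w_6_2_2 FuN.F29_len FuN.F29_0 FuN.F29_16 FuN.F29_32 FuN.F29_48 FuN.F29_64 FuN.F29_80 FuN.F29_96
  have w_2_3_6_2_2 : Rep (Wu gh gs [2,3,6,2,2]) FuN.F30 := by
    rw [Wu_cons]
    exact Rep.mul7 rX38 w_3_6_2_2 FuN.F30_len FuN.F30_0 FuN.F30_16 FuN.F30_32 FuN.F30_48 FuN.F30_64 FuN.F30_80 FuN.F30_96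
  have w_1_2_3_6_2_2 : Rep (Wu gh gs [1,2,3,6,2,2]) FuN.F31 := by
    rw [Wu_cons]
    exact Rep.mul7 rX36 w_2_3_6_2_2 FuN.F31_len FuN.F31_0 FuN.F31_16 FuN.F31_32 FuN.F31_48 FuN.F31_64 FuN.F31_80 FuN.F31_96
  have w_1_1_2_3_6_2_2 : Rep (Wu gh gs [1,1,2,3,6,2,2]) FuN.F32 := by
    rw [Wu_cons]
    exact Rep.mul7 rX36 w_1_2_3_6_2_2 FuN.F32_len FuN.F32_0 FuN.F32_16 FuN.F32_32 FuN.F32_48 FuN.F32_64 FuN.F32_80 FuN.F32_96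
  have w_0_1_1_2_3_6_2_2 : Rep (Wu gh gs [0,1,1,2,3,6,2,2]) FuN.F33 := by
    rw [Wu_cons]
    exact Rep.mul7 u0 w_1_1_2_3_6_2_2 FuN.F33_len FuN.F33_0 FuN.F33_16 FuN.F33_32 FuN.F33_48 FuN.F33_64 FuN.F33_80 FuN.F33_96
  have w_7_0_1_1_2_3_6_2_2 : Rep (Wu gh gs [7,0,1,1,2,3,6,2,2]) FuN.F34 := by
    rw [Wu_cons]
    exact Rep.mul7 rF5 w_0_1_1_2_3_6_2_2 FuN.F34_len FuN.F34_0 FuN.F34_16 FuN.F34_32 FuN.F34_48 FuN.F34_64 FuN.F34_80 FuN.F34_96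
  have w_7_7_0_1_1_2_3_6_2_2 : Rep (Wu gh gs [7,7,0,1,1,2,3,6,2,2]) FuN.F35 := by
    rw [Wu_cons]
    exact Rep.mul7 rF5 w_7_0_1_1_2_3_6_2_2 FuN.F35_len FuN.F35_0 FuN.F35_16 FuN.F35_32 FuN.F35_48 FuN.F35_64 FuN.F35_80 FuN.F35_96
  have w_0_7_7_0_1_1_2_3_6_2_2 : Rep (Wu gh gs [0,7,7,0,1,1,2,3,6,2,2]) FuN.F36 := by
    rw [Wu_cons]
    exact Rep.mul7 u0 w_7_7_0_1_1_2_3_6_2_2 FuN.F36_len FuN.F36_0 FuN.F36_16 FuN.F36_32 FuN.F36_48 FuN.F36_64 FuN.F36_80 FuN.F36_96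
  have rF37 := Rep.mul7 w_1_0_7_1_1_3_8_8_3_4_4 w_0_7_7_0_1_1_2_3_6_2_2 FuN.F37_len FuN.F37_0 FuN.F37_16 FuN.F37_32 FuN.F37_48 FuN.F37_64 FuN.F37_80 FuN.F37_96
  have rF38 := Rep.mul7 rF37 rF37 FuN.F38_len FuN.F38_0 FuN.F38_16 FuN.F38_32 FuN.F38_48 FuN.F38_64 FuN.F38_80 FuN.F38_96
  have rF39 := Rep.mul7 rF38 rF38 FuN.F39_len FuN.F39_0 FuN.F39_16 FuN.F39_32 FuN.F39_48 FuN.F39_64 FuN.F39_80 FuN.F39_96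
  have rF40 := Rep.mul7 rF39 w_0_7_7_0_1_1_4_3_8_4_4 FuN.F40_len FuN.F40_0 FuN.F40_16 FuN.F40_32 FuN.F40_48 FuN.F40_64 FuN.F40_80 FuN.F40_96
  have rF41 := Rep.mul7 w_0_7_7_0_1_1_4_3_8_4_4 rF39 FuN.F41_len FuN.F41_0 FuN.F41_16 FuN.F41_32 FuN.F41_48 FuN.F41_64 FuN.F41_80 FuN.F41_96
  have eZ := rep_inj rF40 (Rep.mul7 ht rF41 FuN.F40_len FuN.Z_0 FuN.Z_16 FuN.Z_32 FuN.Z_48 FuN.Z_64 FuN.Z_80 FuN.Z_96)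
  have rF42 := Rep.mul7 (Rep.letterI .c rfl) (Rep.letter .b rfl) FuN.F42_len FuN.F42_0 FuN.F42_16 FuN.F42_32 FuN.F42_48 FuN.F42_64 FuN.F42_80 FuN.F42_96
  have rF43 := Rep.mul7 rF42 ht FuN.F43_len FuN.F43_0 FuN.F43_16 FuN.F43_32 FuN.F43_48 FuN.F43_64 FuN.F43_80 FuN.F43_96
  have rF44 := Rep.mul7 rF43 (Rep.letterI .b rfl) FuN.F44_len FuN.F44_0 FuN.F44_16 FuN.F44_32 FuN.F44_48 FuN.F44_64 FuN.F44_80 FuN.F44_96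
  have rF45 := Rep.mul7 rF44 (Rep.letter .c rfl) FuN.F45_len FuN.F45_0 FuN.F45_16 FuN.F45_32 FuN.F45_48 FuN.F45_64 FuN.F45_80 FuN.F45_96
  have rF46 := Rep.mul7 rF45 ht FuN.F46_len FuN.F46_0 FuN.F46_16 FuN.F46_32 FuN.F46_48 FuN.F46_64 FuN.F46_80 FuN.F46_96
  have rF47 := Rep.mul7 rF46 rF46 FuN.F47_len FuN.F47_0 FuN.F47_16 FuN.F47_32 FuN.F47_48 FuN.F47_64 FuN.F47_80 FuN.F47_96
  have rF48 := Rep.mul7 rF47 rF47 FuN.F48_len FuN.F48_0 FuN.F48_16 FuN.F48_32 FuN.F48_48 FuN.F48_64 FuN.F48_80 FuN.F48_96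
  have rF49 := Rep.mul7 w_0_7_7_0_1_1_4_3_8_4_4 rF45 FuN.F49_len FuN.F49_0 FuN.F49_16 FuN.F49_32 FuN.F49_48 FuN.F49_64 FuN.F49_80 FuN.F49_96
  have rF50 := Rep.mul7 rF49 rF49 FuN.F50_len FuN.F50_0 FuN.F50_16 FuN.F50_32 FuN.F50_48 FuN.F50_64 FuN.F50_80 FuN.F50_96
  have rF51 := Rep.mul7 rF50 rF50 FuN.F51_len FuN.F51_0 FuN.F51_16 FuN.F51_32 FuN.F51_48 FuN.F51_64 FuN.F51_80 FuN.F51_96
  have rF52 := Rep.mul7 rF51 rF51 FuN.F52_len FuN.F52_0 FuN.F52_16 FuN.F52_32 FuN.F52_48 FuN.F52_64 FuN.F52_80 FuN.F52_96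
  have rF53 := Rep.mul7 rF52 rF52 FuN.F53_len FuN.F53_0 FuN.F53_16 FuN.F53_32 FuN.F53_48 FuN.F53_64 FuN.F53_80 FuN.F53_96
  have rF54 := Rep.mul7 rF53 rF48 FuN.F54_len FuN.F54_0 FuN.F54_16 FuN.F54_32 FuN.F54_48 FuN.F54_64 FuN.F54_80 FuN.F54_96
  have rF55 := Rep.mul7 rF54 ht FuN.F55_len FuN.F55_0 FuN.F55_16 FuN.F55_32 FuN.F55_48 FuN.F55_64 FuN.F55_80 FuN.F55_96
  have e0 := rep_inj rF55 (Rep.mul7 w_0_7_7_0_1_1_4_3_8_4_4 rF54 FuN.F55_len FuN.K0_0 FuN.K0_16 FuN.K0_32 FuN.K0_48 FuN.K0_64 FuN.K0_80 FuN.K0_96)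
  have rF56 := Rep.mul7 w_1_0_7_1_1_3_8_8_3_4_4 rF45 FuN.F56_len FuN.F56_0 FuN.F56_16 FuN.F56_32 FuN.F56_48 FuN.F56_64 FuN.F56_80 FuN.F56_96
  have rF57 := Rep.mul7 rF56 rF56 FuN.F57_len FuN.F57_0 FuN.F57_16 FuN.F57_32 FuN.F57_48 FuN.F57_64 FuN.F57_80 FuN.F57_96
  have rF58 := Rep.mul7 rF57 rF57 FuN.F58_len FuN.F58_0 FuN.F58_16 FuN.F58_32 FuN.F58_48 FuN.F58_64 FuN.F58_80 FuN.F58_96
  have rF59 := Rep.mul7 rF58 rF58 FuN.F59_len FuN.F59_0 FuN.F59_16 FuN.F59_32 FuN.F59_48 FuN.F59_64 FuN.F59_80 FuN.F59_96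
  have rF60 := Rep.mul7 rF59 rF48 FuN.F60_len FuN.F60_0 FuN.F60_16 FuN.F60_32 FuN.F60_48 FuN.F60_64 FuN.F60_80 FuN.F60_96
  have rF61 := Rep.mul7 rF60 ht FuN.F61_len FuN.F61_0 FuN.F61_16 FuN.F61_32 FuN.F61_48 FuN.F61_64 FuN.F61_80 FuN.F61_96
  have e1 := rep_inj rF61 (Rep.mul7 w_1_0_7_1_1_3_8_8_3_4_4 rF60 FuN.F61_len FuN.K1_0 FuN.K1_16 FuN.K1_32 FuN.K1_48 FuN.K1_64 FuN.K1_80 FuN.K1_96)
  have rF62 := Rep.mul7 w_0_7_7_0_1_1_2_3_6_2_2 rF45 FuN.F62_len FuN.F62_0 FuN.F62_16 FuN.F62_32 FuN.F62_48 FuN.F62_64 FuN.F62_80 FuN.F62_96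
  have rF63 := Rep.mul7 rF62 rF62 FuN.F63_len FuN.F63_0 FuN.F63_16 FuN.F63_32 FuN.F63_48 FuN.F63_64 FuN.F63_80 FuN.F63_96
  have rF64 := Rep.mul7 rF63 rF63 FuN.F64_len FuN.F64_0 FuN.F64_16 FuN.F64_32 FuN.F64_48 FuN.F64_64 FuN.F64_80 FuN.F64_96
  have rF65 := Rep.mul7 rF64 rF64 FuN.F65_len FuN.F65_0 FuN.F65_16 FuN.F65_32 FuN.F65_48 FuN.F65_64 FuN.F65_80 FuN.F65_96
  have rF66 := Rep.mul7 rF65 rF65 FuN.F66_len FuN.F66_0 FuN.F66_16 FuN.F66_32 FuN.F66_48 FuN.F66_64 FuN.F66_80 FuN.F66_96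
  have rF67 := Rep.mul7 rF66 rF48 FuN.F67_len FuN.F67_0 FuN.F67_16 FuN.F67_32 FuN.F67_48 FuN.F67_64 FuN.F67_80 FuN.F67_96
  have rF68 := Rep.mul7 rF67 ht FuN.F68_len FuN.F68_0 FuN.F68_16 FuN.F68_32 FuN.F68_48 FuN.F68_64 FuN.F68_80 FuN.F68_96
  have e2 := rep_inj rF68 (Rep.mul7 w_0_7_7_0_1_1_2_3_6_2_2 rF67 FuN.F68_len FuN.K2_0 FuN.K2_16 FuN.K2_32 FuN.K2_48 FuN.K2_64 FuN.K2_80 FuN.K2_96)
  exact ⟨eZ, ⟨_, e0⟩, ⟨_, e1⟩, ⟨_, e2⟩⟩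

end Cfsg.Agent.Lib.LyDce
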