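import Mathlib
import Cfsg.Agent.Lib.LyFusMain

/-!
# The presented Lyons group: its 2-fusion system is simple
-/

set_option autoImplicit false
set_option linter.all false
set_option Elab.async false
set_option maxHeartbeats 0

namespace Cfsg.Agent.Lib.LyDce

open Cfsg.Spor.Ly Cfsg.Agent.Lib.FpVec Cfsg.Agent.Lib.LyV111 Cfsg.Agent.TcData.Ly.Syl.CarP Cfsg.Agent.Lib.LyFusMain

/-- The 2-fusion system of a group isomorphic to the presented Lyons group is simple. -/
theorem fus_final {Y : Type*} [Group Y] [Finite Y] (e : Y ≃* G) (S : Sylow 2 Y) :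
    (Cfsg.groupFusionSystem (S : Subgroup Y)).IsSimple 2 := by
  haveI : Finite G := finite_G
  obtain ⟨gh, hh⟩ := Rep.of_img X24_img
  obtain ⟨gs, hs⟩ := Rep.of_img X33_img
  have ex : (xT : G) = PresentedGroup.of Gen.a * (PresentedGroup.of Gen.d)⁻¹ := by
    show eh [0, 7] = _
    simp [eh, ltH]
  have hr : Rep (xT : G) X10 := by
    rw [ex]
    exact rep_t
  obtain ⟨a1, a2, a3, a4, a5, a6, a7, a8⟩ := car_rel gh gs _ hh hs hr
  have hf := fus_data gh gs _ hh hs hr
  have ht2 : (xT : G) ^ 2 = 1 := by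
    rw [sq]
    exact congrArg Subtype.val xT_sq
  have ht1 : (xT : G) ≠ 1 := fun h => xT_ne (Subtype.ext h)
  have hcard : Nat.card Y = 2 ^ 8 * 202207730484375 := by
    rw [Nat.card_congr e.toEquiv, card_G]
    norm_num
  exact fus_data_main (X := G) (t := (xT : G)) (h := gh) (s := gs) ht2 ht1 a1 a2 (Or.inl a3) a4 a5 a6 a7 a8 cent_lt hf
    e.toMonoidHom e.injective (MonoidHom.range_eq_top.mpr e.surjective) _ hcard (by norm_num) S

end Cfsg.Agent.Lib.LyDce
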